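import Cfsg.Agent.H766.PQ.Desc

/-!
# S4612: elements of `p`-power order in the algebra generated by an element of order `q` (helper766)

`F : CForm K V`, `x ∈ F.iso` of order `q`, `N` a power of the characteristic with `a ^ N = σ a` on `K`, `q ∣ N + 1`:
the adjoint of `r ∈ K[x]` is `r ^ N`.  If `p ^ k ∣ N + 1` and `q ∣ |K|^j - 1 → p ^ k ∣ |K|^j - 1`, there is
`a ∈ F.iso ∩ K[x]` of order `p ^ k`, trivial on the fixed space of `x` (`exists_cen`).
-/

set_option autoImplicit false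
set_option linter.unusedSectionVars false

open Cfsg Cfsg.Agent

namespace Cfsg.Agent.H766.PQ

open Cfsg.Agent.H477.HC Module Polynomial

universe u v w

variable {K : Type u} [Field K] {V : Type v} [AddCommGroup V] [Module K V] {F : CForm K V}

section alg

variable (f : V →ₗ[K] V)

/-- the algebra `K[f]` -/
abbrev Alg : Type u := K[X] ⧸ RingHom.ker (aeval f : K[X] →ₐ[K] Module.End K V).toRingHom

/-- the action -/
noncomputable def act : Alg f →+* Module.End K V := RingHom.kerLift (aeval f : K[X] →ₐ[K] Module.End K V).toRingHom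

theorem act_injective : Function.Injective (act f) := RingHom.kerLift_injective _

theorem act_mk (g : K[X]) : act f (Ideal.Quotient.mk _ g) = aeval f g := rfl

theorem comm_act {c : V →ₗ[K] V} (hc : ∀ v, c (f v) = f (c v)) (r : Alg f) (v : V) : c (act f r v) = act f r (c v) := by
  obtain ⟨g, rfl⟩ := Ideal.Quotient.mk_surjective r
  rw [act_mk]
  have h1 : Commute (c : Module.End K V) f := LinearMap.ext hc
  have h2 : ∀ g : K[X], Commute (c : Module.End K V) (aeval f g) := by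
    intro g
    induction g using Polynomial.induction_on' with
    | add a b ha hb => rw [map_add]; exact ha.add_right hb
    | monomial n a =>
      rw [aeval_monomial]
      exact (show Commute (c : Module.End K V) (algebraMap K _ a) from (Algebra.commutes a (c : Module.End K V)).symm).mul_right
        (h1.pow_right n)
  exact LinearMap.congr_fun (h2 g) v

end alg

section main

variable {x : F.iso} {r t N q : ℕ}

/-- the linear map of `x` -/
def lin (x : F.iso) : V →ₗ[K] V := ((x : V ≃ₗ[K] V) : V →ₗ[K] V)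

theorem lin_pow (x : F.iso) (n : ℕ) (v : V) : (lin x ^ n) v = ((x ^ n : F.iso) : V ≃ₗ[K] V) v := by
  induction n generalizing v with
  | zero => rfl
  | succ n ih =>
    rw [pow_succ, Module.End.mul_apply, ih, pow_succ]
    rfl

theorem lin_pow_eq_one {n : ℕ} (h : x ^ n = 1) : lin x ^ n = 1 := by
  ext v
  rw [lin_pow, h]
  rfl

/-- **The adjoint of `r ∈ K[x]` is `r ^ N`.** -/
theorem B_act [Fact r.Prime] [CharP K r] (hN : N = r ^ t) (hσ : ∀ a : K, a ^ N = F.σ a) (hq : q ∣ N + 1) (hx : x ^ q = 1)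
    (y : Alg (lin x)) (u v : V) : F.B (act _ y u) v = F.B u (act _ (y ^ N) v) := by
  obtain ⟨g, rfl⟩ := Ideal.Quotient.mk_surjective y
  have hxN : x ^ (N + 1) = 1 := by
    obtain ⟨c, hc⟩ := hq
    rw [hc, pow_mul, hx, one_pow]
  rw [← map_pow, act_mk, act_mk]
  induction g using Polynomial.induction_on' generalizing u v with
  | add a b ha hb =>
    have h1 : (a + b) ^ N = a ^ N + b ^ N := by
      rw [hN]
      exact add_pow_char_pow a b r t
    rw [h1, map_add, map_add, LinearMap.add_apply, LinearMap.add_apply, F.B_add_left, F.B_add_right, ha, hb]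
  | monomial n a =>
    have h0 : (monomial n a : K[X]) ^ N = monomial (n * N) (F.σ a) := by
      rw [monomial_pow, hσ]
    rw [h0, aeval_monomial, aeval_monomial, Module.End.mul_apply, Module.End.mul_apply, Module.algebraMap_end_apply,
      Module.algebraMap_end_apply, F.B_smul_left, F.B_smul_right, F.σσ, lin_pow, lin_pow]
    congr 1
    rw [← F.iso_B (x ^ (n * N))]
    have h2 : x ^ (n * N) * x ^ n = 1 := by
      rw [← pow_add, ← Nat.mul_succ, mul_comm, pow_mul, hxN, one_pow]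
    have h3 : ((x ^ (n * N) : F.iso) : V ≃ₗ[K] V) (((x ^ n : F.iso) : V ≃ₗ[K] V) u) = u := by
      have h4 : ((x ^ (n * N) * x ^ n : F.iso) : V ≃ₗ[K] V) u = u := by rw [h2]; rfl
      exact h4
    rw [h3]

/-- the generator -/
noncomputable def gen (x : F.iso) : Alg (lin x) := Ideal.Quotient.mk _ X

theorem act_gen (x : F.iso) : act _ (gen x) = lin x := by
  unfold gen
  rw [act_mk, aeval_X]

theorem gen_pow_eq_one {n : ℕ} (h : x ^ n = 1) : gen x ^ n = 1 := by
  apply act_injective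
  rw [map_pow, act_gen, lin_pow_eq_one h, map_one]

/-- every element of `K[x]` is fixed by `y ↦ y ^ N ^ 2` -/
theorem pow_sq [Fact r.Prime] [CharP K r] (hN : N = r ^ t) (hσ : ∀ a : K, a ^ N = F.σ a) (hq : q ∣ N + 1) (hx : x ^ q = 1)
    (y : Alg (lin x)) : y ^ (N ^ 2) = y := by
  have hxN : gen x ^ (N ^ 2) = gen x := by
    obtain ⟨c, hc⟩ := hq
    have h1 : N ^ 2 = q * (c * (N - 1)) + 1 := by
      have hN1 : 1 ≤ N := by
        rw [hN]
        exact Nat.one_le_pow _ _ (Fact.out : r.Prime).pos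
      have h2 : (N + 1) * (N - 1) + 1 = N ^ 2 := by
        obtain ⟨M, rfl⟩ := Nat.exists_eq_add_of_le hN1
        simp only [Nat.add_sub_cancel_left]
        ring
      rw [← h2, hc]
      ring
    rw [h1, pow_succ, pow_mul, gen_pow_eq_one hx, one_pow, one_mul]
  have hK : ∀ a : K, a ^ (N ^ 2) = a := fun a => by rw [sq, pow_mul, hσ, hσ, F.σσ]
  obtain ⟨g, rfl⟩ := Ideal.Quotient.mk_surjective y
  induction g using Polynomial.induction_on' with
  | add a b ha hb =>
    have h1 : (Ideal.Quotient.mk _ (a + b) : Alg (lin x)) ^ (N ^ 2) = Ideal.Quotient.mk _ a ^ (N ^ 2) +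
        Ideal.Quotient.mk _ b ^ (N ^ 2) := by
      rw [← map_pow, ← map_pow, ← map_pow, ← map_add, hN, ← pow_mul]
      congr 1
      exact add_pow_char_pow a b r _
    rw [h1, ha, hb, map_add]
  | monomial n a =>
    have h2 : (Ideal.Quotient.mk (RingHom.ker (aeval (lin x) : K[X] →ₐ[K] Module.End K V).toRingHom) (monomial n a) :
        Alg (lin x)) = algebraMap K _ a * gen x ^ n := by
      unfold gen
      rw [← C_mul_X_pow_eq_monomial, map_mul, map_pow]
      rfl
    rw [h2, mul_pow, ← map_pow, hK, ← pow_mul, mul_comm n, pow_mul, hxN]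

/-- the idempotent of the fixed space -/
noncomputable def e0 (q : ℕ) (x : F.iso) : Alg (lin x) := (q : K)⁻¹ • ∑ i ∈ Finset.range q, gen x ^ i

theorem gen_mul_e0 (hx : x ^ q = 1) : gen x * e0 q x = e0 q x := by
  unfold e0
  rw [mul_smul_comm, Finset.mul_sum]
  congr 1
  have h2 := Finset.sum_range_succ' (fun i => gen x ^ i) q
  have h3 := Finset.sum_range_succ (fun i => gen x ^ i) q
  rw [h3, gen_pow_eq_one hx, pow_zero] at h2
  rw [add_right_cancel h2]
  exact Finset.sum_congr rfl fun i _ => (pow_succ' _ _).symm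

theorem gen_pow_mul_e0 (hx : x ^ q = 1) (i : ℕ) : gen x ^ i * e0 q x = e0 q x := by
  induction i with
  | zero => rw [pow_zero, one_mul]
  | succ i ih => rw [pow_succ, mul_assoc, gen_mul_e0 hx, ih]

theorem e0_mul_e0 (hq0 : (q : K) ≠ 0) (hx : x ^ q = 1) : e0 q x * e0 q x = e0 q x := by
  have h1 : e0 q x * e0 q x = (q : K)⁻¹ • ((∑ i ∈ Finset.range q, gen x ^ i) * e0 q x) := by
    rw [← smul_mul_assoc]
    rfl
  rw [h1, Finset.sum_mul, Finset.sum_congr rfl fun i _ => gen_pow_mul_e0 hx i, Finset.sum_const, Finset.card_range,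
    ← Nat.cast_smul_eq_nsmul K, smul_smul, inv_mul_cancel₀ hq0, one_smul]

theorem act_smul (a : K) (y : Alg (lin x)) : act _ (a • y) = a • act _ y := by
  obtain ⟨g, rfl⟩ := Ideal.Quotient.mk_surjective y
  have h : a • (Ideal.Quotient.mk (RingHom.ker (aeval (lin x) : K[X] →ₐ[K] Module.End K V).toRingHom) g) =
    Ideal.Quotient.mk _ (a • g) := rfl
  rw [h, act_mk, act_mk, map_smul]

theorem act_e0_mem (hx : x ^ q = 1) (v : V) : act _ (e0 q x) v ∈ fixS (x : V ≃ₗ[K] V) := by
  rw [mem_fixS]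
  have h1 := congrArg (act (lin x)) (gen_mul_e0 hx)
  rw [map_mul, act_gen] at h1
  exact LinearMap.congr_fun h1 v

theorem act_e0_fix (hq0 : (q : K) ≠ 0) {v : V} (hv : v ∈ fixS (x : V ≃ₗ[K] V)) : act _ (e0 q x) v = v := by
  unfold e0
  rw [act_smul, map_sum, LinearMap.smul_apply, LinearMap.sum_apply]
  have h1 : ∀ i ∈ Finset.range q, (act (lin x) (gen x ^ i)) v = v := by
    intro i _
    rw [map_pow, act_gen, lin_pow]
    exact fixS_pow hv i
  rw [Finset.sum_congr rfl h1, Finset.sum_const, Finset.card_range, ← Nat.cast_smul_eq_nsmul K, smul_smul,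
    inv_mul_cancel₀ hq0, one_smul]

theorem finite_alg [Finite V] : Finite (Alg (lin x)) := by
  have : Finite (Module.End K V) := Finite.of_injective (fun f : Module.End K V => (f : V → V)) DFunLike.coe_injective
  exact Finite.of_injective _ (act_injective (lin x))

/-- an element of `K[x]` with `a * a ^ N = 1` and `a e₀ = e₀` is an isometry -/
theorem exists_isom [FiniteDimensional K V] [Fact r.Prime] [CharP K r] (hN : N = r ^ t) (hσ : ∀ a : K, a ^ N = F.σ a)
    (hq : q ∣ N + 1) (hq0 : (q : K) ≠ 0) (hx : x ^ q = 1) {a : Alg (lin x)} (ha : a ^ (N + 1) = 1)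
    (hae : a * e0 q x = e0 q x) : ∃ g : F.iso, ∀ v, (g : V ≃ₗ[K] V) v = act _ a v := by
  have hB : ∀ u v, F.B (act _ a u) (act _ a v) = F.B u v := by
    intro u v
    rw [B_act hN hσ hq hx, ← Module.End.mul_apply, ← map_mul, ← pow_succ, ha, map_one]
    rfl
  have hfix : ∀ v ∈ fixS (x : V ≃ₗ[K] V), act _ a v = v := by
    intro v hv
    rw [← act_e0_fix hq0 hv, ← Module.End.mul_apply, ← map_mul, hae]
  have hcomm : ∀ v, act _ a ((x : V ≃ₗ[K] V) v) = (x : V ≃ₗ[K] V) (act _ a v) := fun v =>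
    (comm_act (lin x) (c := lin x) (fun _ => rfl) a v).symm
  have hδ : ∀ u v, F.Q (act _ a (u + v)) - F.Q (u + v) = (F.Q (act _ a u) - F.Q u) + (F.Q (act _ a v) - F.Q v) := by
    intro u v
    rw [map_add, F.Q_add, F.Q_add, hB]
    ring
  have hδx : ∀ v, F.Q (act _ a ((x : V ≃ₗ[K] V) v)) - F.Q ((x : V ≃ₗ[K] V) v) = F.Q (act _ a v) - F.Q v := by
    intro v
    rw [hcomm, F.iso_Q, F.iso_Q]
  have hδi : ∀ (i : ℕ) (v : V), F.Q (act _ a ((lin x ^ i) v)) - F.Q ((lin x ^ i) v) = F.Q (act _ a v) - F.Q v := by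
    intro i
    induction i with
    | zero => intro v; rfl
    | succ i ih =>
      intro v
      rw [pow_succ, Module.End.mul_apply, ih]
      exact hδx v
  have hsum : ∀ (n : ℕ) (v : V), F.Q (act _ a (∑ i ∈ Finset.range n, (lin x ^ i) v)) -
      F.Q (∑ i ∈ Finset.range n, (lin x ^ i) v) = (n : K) * (F.Q (act _ a v) - F.Q v) := by
    intro n v
    induction n with
    | zero =>
      rw [Finset.range_zero, Finset.sum_empty, map_zero, sub_self, Nat.cast_zero, zero_mul]
    | succ n ih =>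
      rw [Finset.sum_range_succ, hδ, ih, hδi]
      push_cast
      ring
  have hQ : ∀ v, F.Q (act _ a v) = F.Q v := by
    intro v
    have h1 := hsum q v
    have h2 : ∑ i ∈ Finset.range q, (lin x ^ i) v = (q : K) • act _ (e0 q x) v := by
      unfold e0
      rw [act_smul, map_sum, LinearMap.smul_apply, LinearMap.sum_apply, smul_smul, mul_inv_cancel₀ hq0, one_smul]
      exact Finset.sum_congr rfl fun i _ => by rw [map_pow, act_gen]
    rw [h2, hfix _ ((fixS _).smul_mem _ (act_e0_mem hx v)), sub_self] at h1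
    have h3 := (mul_eq_zero.1 h1.symm).resolve_left hq0
    exact sub_eq_zero.1 h3
  obtain ⟨g, hg⟩ := F.exists_iso (act _ a) hB hQ
  exact ⟨g, hg⟩

/-- **Elements of order `p ^ k` in `F.iso ∩ K[x]`.** -/
theorem exists_cen [Finite K] [Finite V] [FiniteDimensional K V] [Fact r.Prime] [CharP K r] (hN : N = r ^ t) (hN2 : 1 < N)
    (hσ : ∀ a : K, a ^ N = F.σ a) (hqp : q.Prime) (hq : q ∣ N + 1) (hq0 : (q : K) ≠ 0) (hx : x ^ q = 1) (hx1 : x ≠ 1)
    {p k : ℕ} (hp : p.Prime) (hk : 0 < k) (hpN : p ^ k ∣ N + 1)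
    (H : ∀ j, q ∣ Nat.card K ^ j - 1 → p ^ k ∣ Nat.card K ^ j - 1) :
    ∃ g : F.iso, orderOf g = p ^ k ∧ (∀ c : F.iso, c * x = x * c → c * g = g * c) ∧
      (∀ v ∈ fixS (x : V ≃ₗ[K] V), (g : V ≃ₗ[K] V) v = v) ∧
      ∃ a : Alg (lin x), ∀ v, (g : V ≃ₗ[K] V) v = act _ a v := by
  have hfin : Finite (Alg (lin x)) := finite_alg
  have hN1 : 1 ≤ N := hN2.le
  -- the idempotent `e0` is not `1`
  have he1 : e0 q x ≠ 1 := by
    intro h
    apply hx1
    have h1 := gen_mul_e0 (q := q) hx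
    rw [h, mul_one] at h1
    have h2 := congrArg (act (lin x)) h1
    rw [act_gen, map_one] at h2
    apply Subtype.ext
    apply LinearEquiv.ext
    intro v
    exact LinearMap.congr_fun h2 v
  have hnu : ¬ IsUnit (e0 q x) := by
    intro h
    have h1 := e0_mul_e0 hq0 hx
    exact he1 (h.mul_left_cancel (by rw [h1, mul_one]))
  obtain ⟨M, hM, heM⟩ := exists_max_ideal_of_mem_nonunits (mem_nonunits_iff.2 hnu)
  let _ : Field (Alg (lin x) ⧸ M) := Ideal.Quotient.field M
  have hfinL : Finite (Alg (lin x) ⧸ M) := Quotient.finite _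
  -- the cardinality of the residue field
  obtain ⟨j, hj⟩ : ∃ j, Nat.card (Alg (lin x) ⧸ M) = Nat.card K ^ j :=
    ⟨Module.finrank K (Alg (lin x) ⧸ M), Module.natCard_eq_pow_finrank⟩
  set π : Alg (lin x) →+* (Alg (lin x) ⧸ M) := Ideal.Quotient.mk M with hπ
  have hπe : π (e0 q x) = 0 := Ideal.Quotient.eq_zero_iff_mem.2 heM
  -- `q` divides the order of its unit group
  have hqL : q ∣ Nat.card K ^ j - 1 := by
    rw [← hj]
    have h1 : (π (gen x)) ^ q = 1 := by rw [← map_pow, gen_pow_eq_one hx, map_one]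
    have h2 : π (gen x) ≠ 1 := by
      intro h2
      have h3 : π (e0 q x) = algebraMap K _ (q : K)⁻¹ * ∑ i ∈ Finset.range q, (π (gen x)) ^ i := by
        unfold e0
        rw [Algebra.smul_def, map_mul, map_sum]
        simp only [map_pow]
        rfl
      rw [hπe, h2] at h3
      simp only [one_pow, Finset.sum_const, Finset.card_range, nsmul_eq_mul, mul_one] at h3
      have h4 : (algebraMap K (Alg (lin x) ⧸ M) (q : K)⁻¹) * (q : Alg (lin x) ⧸ M) = 1 := by
        rw [← map_natCast (algebraMap K (Alg (lin x) ⧸ M)) q, ← map_mul, inv_mul_cancel₀ hq0, map_one]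
      rw [h4] at h3
      exact zero_ne_one h3
    have h5 : orderOf (π (gen x)) = q := orderOf_eq_prime (hp := ⟨hqp⟩) h1 h2
    have h6 : π (gen x) ≠ 0 := by
      intro h6
      rw [h6, zero_pow hqp.ne_zero] at h1
      exact zero_ne_one h1
    rw [← h5, ← Nat.card_units, ← Units.val_mk0 h6, orderOf_units]
    exact orderOf_dvd_natCard _
  have hpL : p ^ k ∣ Nat.card (Alg (lin x) ⧸ M)ˣ := by
    rw [Nat.card_units, hj]
    exact H j hqL
  obtain ⟨ζ0, hζ0⟩ := IsCyclic.exists_ofOrder_eq_natCard (α := (Alg (lin x) ⧸ M)ˣ)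
  obtain ⟨c0, hc0⟩ := hpL
  have hc0pos : c0 ≠ 0 := by
    rintro rfl
    rw [mul_zero] at hc0
    exact Nat.card_pos.ne' hc0
  obtain ⟨ζ, hζ⟩ : ∃ ζ : (Alg (lin x) ⧸ M)ˣ, orderOf ζ = p ^ k := by
    refine ⟨ζ0 ^ c0, ?_⟩
    rw [orderOf_pow' _ hc0pos, hζ0, hc0, Nat.gcd_eq_right (Dvd.intro_left _ rfl), Nat.mul_div_cancel _ (Nat.pos_of_ne_zero hc0pos)]
  obtain ⟨z, hz⟩ := Ideal.Quotient.mk_surjective (ζ : Alg (lin x) ⧸ M)
  -- the element `z1`
  set z1 : Alg (lin x) := z * (1 - e0 q x) with hz1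
  have hπz1 : π z1 = ζ := by rw [hz1, map_mul, map_sub, map_one, hπe, sub_zero, mul_one, hπ, hz]
  have hz1e0 : z1 * e0 q x = 0 := by
    rw [hz1, mul_assoc, sub_mul, one_mul, e0_mul_e0 hq0 hx, sub_self, mul_zero]
  obtain ⟨n, hn⟩ : ∃ n, N ^ 2 = n + 1 := ⟨N ^ 2 - 1, by have := Nat.one_le_pow 2 N hN1; omega⟩
  have hNn : (N + 1) * (N - 1) = n := by
    obtain ⟨M', rfl⟩ := Nat.exists_eq_add_of_le hN1
    have : (1 + M' + 1) * (1 + M' - 1) + 1 = n + 1 := by
      rw [← hn]
      simp only [Nat.add_sub_cancel_left]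
      ring
    omega
  have hz1n : z1 ^ (n + 1) = z1 := by rw [← hn]; exact pow_sq hN hσ hq hx z1
  have hpn : p ^ k ∣ n := by
    rw [← hNn]
    exact hpN.mul_right _
  have hn0 : n ≠ 0 := by
    have h3 : 2 ^ 2 ≤ N ^ 2 := Nat.pow_le_pow_left hN2 2
    omega
  set e : Alg (lin x) := z1 ^ n with he
  have hez1 : z1 * e = z1 := by rw [he, ← pow_succ', hz1n]
  have hee : e * e = e := by
    obtain ⟨n1, rfl⟩ := Nat.exists_eq_succ_of_ne_zero hn0
    rw [he]
    calc z1 ^ (n1 + 1) * z1 ^ (n1 + 1) = z1 ^ (n1 + 1 + 1) * z1 ^ n1 := by ring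
      _ = z1 ^ (n1 + 1) := by rw [hz1n]; ring
  have hee0 : e * e0 q x = 0 := by
    obtain ⟨n1, rfl⟩ := Nat.exists_eq_succ_of_ne_zero hn0
    rw [he, pow_succ, mul_assoc, hz1e0, mul_zero]
  obtain ⟨b, n', hpn', hn'⟩ := Nat.exists_eq_pow_mul_and_not_dvd hn0 p hp.one_lt.ne'
  set z3 : Alg (lin x) := z1 ^ n' with hz3
  have hn'0 : n' ≠ 0 := by
    rintro rfl
    exact hpn' (dvd_zero _)
  have hz3e : z3 * e = z3 := by
    obtain ⟨n1, rfl⟩ := Nat.exists_eq_succ_of_ne_zero hn'0
    rw [hz3, pow_succ, mul_assoc, hez1]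
  have hz3e0 : z3 * e0 q x = 0 := by
    obtain ⟨n1, rfl⟩ := Nat.exists_eq_succ_of_ne_zero hn'0
    rw [hz3, pow_succ, mul_assoc, hz1e0, mul_zero]
  set a0 : Alg (lin x) := z3 + (1 - e) with ha0
  have ha0pow : ∀ i, a0 ^ (i + 1) = z3 ^ (i + 1) + (1 - e) := by
    intro i
    induction i with
    | zero => rw [zero_add, pow_one, pow_one]
    | succ i ih =>
      have h1 : z3 ^ (i + 1) * (1 - e) = 0 := by
        rw [pow_succ, mul_assoc, mul_sub, mul_one, hz3e, sub_self, mul_zero]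
      have h2 : (1 - e) * z3 = 0 := by rw [mul_comm, mul_sub, mul_one, hz3e, sub_self]
      have h3 : (1 - e) * (1 - e) = 1 - e := by
        rw [mul_sub, mul_one, sub_mul, one_mul, hee, sub_self, sub_zero]
      rw [pow_succ a0, ih, ha0, add_mul, mul_add, mul_add, h1, h2, h3, ← pow_succ]
      abel
  have ha0b : a0 ^ (p ^ b) = 1 := by
    have h1 : p ^ b ≠ 0 := pow_ne_zero _ hp.ne_zero
    obtain ⟨i, hi⟩ := Nat.exists_eq_succ_of_ne_zero h1
    have h2 : z3 ^ (p ^ b) = e := by rw [hz3, ← pow_mul, mul_comm, ← hn', he]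
    rw [hi, Nat.succ_eq_add_one, ha0pow, ← Nat.succ_eq_add_one, ← hi, h2, add_sub_cancel]
  have ha0e0 : a0 * e0 q x = e0 q x := by
    rw [ha0, add_mul, hz3e0, zero_add, sub_mul, hee0, sub_zero, one_mul]
  -- the image in the residue field
  have hπe' : π e = 1 := by
    rw [he, map_pow, hπz1, ← Units.val_pow_eq_pow_val]
    have : ζ ^ n = 1 := by
      rw [← orderOf_dvd_iff_pow_eq_one, hζ]
      exact hpn
    rw [this, Units.val_one]
  have hπa0 : π a0 = ((ζ ^ n' : (Alg (lin x) ⧸ M)ˣ) : Alg (lin x) ⧸ M) := by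
    rw [ha0, map_add, map_sub, map_one, hπe', sub_self, add_zero, hz3, map_pow, hπz1, Units.val_pow_eq_pow_val]
  have hord1 : p ^ k ∣ orderOf a0 := by
    have h1 : orderOf (π a0) ∣ orderOf a0 := orderOf_map_dvd π.toMonoidHom a0
    rw [hπa0, orderOf_units, orderOf_pow' _ hn'0, hζ] at h1
    have h2 : Nat.gcd (p ^ k) n' = 1 := Nat.Coprime.pow_left k ((Nat.Prime.coprime_iff_not_dvd hp).2 hpn')
    rwa [h2, Nat.div_one] at h1
  obtain ⟨c, hcb, hc⟩ := (Nat.dvd_prime_pow hp).1 (orderOf_dvd_of_pow_eq_one ha0b)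
  rw [hc] at hord1
  have hkc : k ≤ c := (Nat.pow_dvd_pow_iff_le_right hp.one_lt).1 hord1
  set a : Alg (lin x) := a0 ^ (p ^ (c - k)) with ha
  have haord : orderOf a = p ^ k := by
    rw [ha, orderOf_pow' _ (pow_ne_zero _ hp.ne_zero), hc, Nat.gcd_eq_right (pow_dvd_pow p (Nat.sub_le c k)),
      Nat.pow_div (Nat.sub_le c k) hp.pos]
    congr 1
    omega
  have haN : a ^ (N + 1) = 1 := by
    rw [← orderOf_dvd_iff_pow_eq_one, haord]
    exact hpN
  have hae0 : a * e0 q x = e0 q x := by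
    rw [ha]
    generalize p ^ (c - k) = i
    induction i with
    | zero => rw [pow_zero, one_mul]
    | succ i ih => rw [pow_succ, mul_assoc, ha0e0, ih]
  obtain ⟨g, hg⟩ := exists_isom hN hσ hq hq0 hx haN hae0
  have hgpow : ∀ (i : ℕ) (v : V), ((g ^ i : F.iso) : V ≃ₗ[K] V) v = act _ (a ^ i) v := by
    intro i
    induction i with
    | zero => intro v; rw [pow_zero, pow_zero, map_one]; rfl
    | succ i ih =>
      intro v
      rw [pow_succ, pow_succ, map_mul, Module.End.mul_apply, ← hg, ← ih]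
      rfl
  have hgi : ∀ i : ℕ, g ^ i = 1 ↔ a ^ i = 1 := by
    intro i
    constructor
    · intro h
      apply act_injective
      apply LinearMap.ext
      intro v
      rw [← hgpow, h, map_one]
      rfl
    · intro h
      apply Subtype.ext
      apply LinearEquiv.ext
      intro v
      rw [hgpow, h, map_one]
      rfl
  refine ⟨g, ?_, ?_, ?_, a, hg⟩
  · rw [← haord]
    apply Nat.dvd_antisymm
    · rw [orderOf_dvd_iff_pow_eq_one, hgi, pow_orderOf_eq_one]
    · rw [orderOf_dvd_iff_pow_eq_one, ← hgi, pow_orderOf_eq_one]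
  · intro c' hc'
    apply Subtype.ext
    apply LinearEquiv.ext
    intro v
    change (c' : V ≃ₗ[K] V) ((g : V ≃ₗ[K] V) v) = (g : V ≃ₗ[K] V) ((c' : V ≃ₗ[K] V) v)
    rw [hg, hg]
    exact comm_act (lin x) (c := lin c') (fun w => by
      have := congrArg (fun y : F.iso => (y : V ≃ₗ[K] V) w) hc'
      exact this) a v
  · intro v hv
    rw [hg, ← act_e0_fix hq0 hv, ← Module.End.mul_apply, ← map_mul, hae0]

end main

end Cfsg.Agent.H766.PQ
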