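import Cfsg.Agent.H766.PQ.Step
import Cfsg.Agent.H477.HC.Form

/-!
# S4612: descent in the isometry groups (helper766)

`F : CForm K V` a non-degenerate form, `x ∈ F.iso` an element of order prime to the characteristic.

* `fixS`, `split` : `V = C_V(x) ⊥ C_V(x)ᗮ`; `Spl F W` : `V = W ⊥ Wᗮ`;
* `CForm.res` : the restriction of the form to `W`, `ext : (F.res h).iso →* F.iso`;
* `descend` : `PQ p q (commutator F.iso) → PQ p q (commutator (F.res h).iso)`, `W = C_V(x)`, `x` a `p`-element of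
  `commutator F.iso`; `descend'` : the same starting from a central quotient of `commutator F.iso`.
-/

set_option autoImplicit false
set_option linter.unusedSectionVars false

open Cfsg Cfsg.Agent

namespace Cfsg.Agent.H766.PQ

open Cfsg.Agent.H358.A3 (PQ)
open Cfsg.Agent.H477.HC Module

universe u v w

variable {K : Type u} [Field K] {V : Type v} [AddCommGroup V] [Module K V] (F : CForm K V)

/-- `V = W + Wᗮ` -/
def Spl (W : Submodule K V) : Prop := ∀ v : V, ∃ w ∈ W, ∃ u ∈ F.perp W, v = w + u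

variable {F}

theorem Spl.inf {W : Submodule K V} (h : Spl F W) {w : V} (hw : w ∈ W) (hw' : w ∈ F.perp W) : w = 0 := by
  refine F.nondeg w fun v => ?_
  obtain ⟨w', hw1, u, hu, rfl⟩ := h v
  rw [F.B_add_right, hw' w' hw1, F.B_eq_zero (hu w hw), add_zero]

theorem Spl.isCompl {W : Submodule K V} (h : Spl F W) : IsCompl W (F.perp W) := by
  refine IsCompl.of_eq ?_ ?_
  · rw [eq_bot_iff]
    rintro w ⟨hw, hw'⟩
    exact h.inf hw hw'
  · rw [eq_top_iff]
    rintro v -
    obtain ⟨w, hw, u, hu, rfl⟩ := h v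
    exact Submodule.add_mem_sup hw hu

theorem Spl.perp {W : Submodule K V} (h : Spl F W) : Spl F (F.perp W) := by
  intro v
  obtain ⟨w, hw, u, hu, rfl⟩ := h v
  exact ⟨u, hu, w, fun y hy => F.B_eq_zero (hy w hw), add_comm _ _⟩

theorem Spl.perp_perp {W : Submodule K V} (h : Spl F W) : F.perp (F.perp W) = W := by
  apply le_antisymm
  · intro v hv
    obtain ⟨w, hw, u, hu, rfl⟩ := h v
    have h1 : u = 0 := by
      refine h.inf (w := u) ?_ hu |> fun h => h
      -- `u` is orthogonal to `perp W` and to `W`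
      have h2 : ∀ y, F.B u y = 0 := by
        intro y
        obtain ⟨w', hw', u', hu', rfl⟩ := h y
        rw [F.B_add_right, hu w' hw', zero_add]
        have h3 := hv u' hu'
        rw [F.B_add_left, F.B_eq_zero (hu' w hw), zero_add] at h3
        exact h3
      rw [F.nondeg u h2]
      exact W.zero_mem
    rw [h1, add_zero]
    exact hw
  · intro w hw v hv
    exact F.B_eq_zero (hv w hw)

/-- the restriction of the form -/
def CForm.res (F : CForm K V) {W : Submodule K V} (h : Spl F W) : CForm K W where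
  σ := F.σ
  σσ := F.σσ
  ε := F.ε
  hε := F.hε
  B := fun u v => F.B u v
  B_add_left := fun u v w => F.B_add_left u v w
  B_smul_left := fun a u v => F.B_smul_left a u v
  B_symm := fun u v => F.B_symm u v
  Q := fun u => F.Q u
  T := F.T
  T_add := F.T_add
  T_symm := F.T_symm
  Q_add := fun u v => F.Q_add u v
  Q_smul := fun a u => F.Q_smul a u
  Q_range := fun b => F.Q_range b
  alt := fun v hv => F.alt v hv
  nondeg := by
    intro w hw
    apply Subtype.ext
    refine F.nondeg w fun v => ?_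
    obtain ⟨w', hw', u, hu, rfl⟩ := h v
    rw [F.B_add_right, hw ⟨w', hw'⟩, F.B_eq_zero (hu w w.2), add_zero]

section ext

variable {W : Submodule K V} (h : Spl F W)

/-- the decomposition -/
noncomputable def dec : (W × F.perp W) ≃ₗ[K] V := Submodule.prodEquivOfIsCompl _ _ h.isCompl

theorem dec_apply (x : W × F.perp W) : dec h x = x.1 + x.2 := rfl

/-- `g ⊕ 1` -/
noncomputable def ext0 (g : W ≃ₗ[K] W) : V ≃ₗ[K] V :=
  (dec h).symm.trans ((g.prodCongr (LinearEquiv.refl K (F.perp W))).trans (dec h))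

theorem ext0_left (g : W ≃ₗ[K] W) (w : W) : ext0 h g w = g w := by
  have h1 : (dec h).symm (w : V) = (w, 0) := by
    rw [LinearEquiv.symm_apply_eq, dec_apply]
    simp
  unfold ext0
  rw [LinearEquiv.trans_apply, LinearEquiv.trans_apply, h1, dec_apply]
  simp

theorem ext0_right (g : W ≃ₗ[K] W) {u : V} (hu : u ∈ F.perp W) : ext0 h g u = u := by
  have h1 : (dec h).symm u = (0, ⟨u, hu⟩) := by
    rw [LinearEquiv.symm_apply_eq, dec_apply]
    simp
  unfold ext0
  rw [LinearEquiv.trans_apply, LinearEquiv.trans_apply, h1, dec_apply]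
  simp

/-- `g ⊕ 1` -/
noncomputable def ext : (CForm.res F h).iso →* F.iso where
  toFun g := ⟨ext0 h g.1, by
    have hB : ∀ u v : W, F.B (g.1 u) (g.1 v) = F.B u v := fun u v => g.2.1 u v
    have hQ : ∀ u : W, F.Q (g.1 u) = F.Q u := fun u => g.2.2 u
    refine ⟨fun a b => ?_, fun a => ?_⟩
    · obtain ⟨w, hw, u, hu, rfl⟩ := h a
      obtain ⟨w', hw', u', hu', rfl⟩ := h b
      have e1 := ext0_left h g.1 ⟨w, hw⟩
      have e2 := ext0_left h g.1 ⟨w', hw'⟩
      simp only at e1 e2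
      rw [map_add, map_add, e1, e2, ext0_right h g.1 hu, ext0_right h g.1 hu', F.B_add_left, F.B_add_left,
        F.B_add_right, F.B_add_right, F.B_add_right, F.B_add_right, hB, hu' |> fun _ => F.B_eq_zero (hu' _ (g.1 ⟨w, hw⟩).2),
        hu _ (g.1 ⟨w', hw'⟩).2, F.B_eq_zero (hu' w hw), hu w' hw']
    · obtain ⟨w, hw, u, hu, rfl⟩ := h a
      have e1 := ext0_left h g.1 ⟨w, hw⟩
      simp only at e1
      rw [map_add, e1, ext0_right h g.1 hu, F.Q_add, F.Q_add, hQ, F.B_eq_zero (hu _ (g.1 ⟨w, hw⟩).2),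
        F.B_eq_zero (hu w hw)]⟩
  map_one' := by
    apply Subtype.ext
    apply LinearEquiv.ext
    intro a
    obtain ⟨w, hw, u, hu, rfl⟩ := h a
    have e1 := ext0_left h 1 ⟨w, hw⟩
    change ext0 h 1 (w + u) = w + u
    rw [map_add, ext0_right h _ hu]
    congr 1
  map_mul' := by
    intro g g'
    apply Subtype.ext
    apply LinearEquiv.ext
    intro a
    obtain ⟨w, hw, u, hu, rfl⟩ := h a
    change ext0 h (g.1 * g'.1) (w + u) = ext0 h g.1 (ext0 h g'.1 (w + u))
    have e1 := ext0_left h (g.1 * g'.1) ⟨w, hw⟩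
    have e2 := ext0_left h g'.1 ⟨w, hw⟩
    simp only at e1 e2
    rw [map_add, map_add, map_add, ext0_right h _ hu, ext0_right h _ hu, ext0_right h _ hu, e1, e2, ext0_left]
    rfl

theorem ext_left (g : (CForm.res F h).iso) (w : W) : ((ext h g : F.iso) : V ≃ₗ[K] V) w = ((g : W ≃ₗ[K] W) w : V) :=
  ext0_left h g.1 w

theorem ext_right (g : (CForm.res F h).iso) {u : V} (hu : u ∈ F.perp W) :
    ((ext h g : F.iso) : V ≃ₗ[K] V) u = u := ext0_right h g.1 hu

theorem ext_injective : Function.Injective (ext h) := by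
  rw [injective_iff_map_eq_one]
  intro g hg
  apply Subtype.ext
  apply LinearEquiv.ext
  intro w
  apply Subtype.ext
  rw [← ext_left h g w, hg]
  rfl

/-- an isometry trivial on `Wᗮ` is in the image -/
theorem exists_ext [FiniteDimensional K V] {g : F.iso} (hg : ∀ u ∈ F.perp W, (g : V ≃ₗ[K] V) u = u) :
    ∃ g' : (CForm.res F h).iso, ext h g' = g := by
  have hW : ∀ w ∈ W, (g : V ≃ₗ[K] V) w ∈ W := by
    intro w hw
    rw [← h.perp_perp]
    intro u hu
    rw [← hg u hu, F.iso_B]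
    exact F.B_eq_zero (hu w hw)
  have : FiniteDimensional K W := inferInstance
  obtain ⟨g', hg'⟩ := (CForm.res F h).exists_iso (((g : V ≃ₗ[K] V) : V →ₗ[K] V).restrict hW)
    (fun u v => F.iso_B g u v) (fun u => F.iso_Q g u)
  refine ⟨g', ?_⟩
  apply Subtype.ext
  apply LinearEquiv.ext
  intro a
  obtain ⟨w, hw, u, hu, rfl⟩ := h a
  have e1 := ext_left h g' ⟨w, hw⟩
  rw [hg'] at e1
  rw [map_add, map_add, ext_right h g' hu, hg u hu]
  congr 1

/-- conjugation by an isometry preserving `W` -/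
theorem conj_ext [FiniteDimensional K V] {c : F.iso} (hc : ∀ w ∈ W, (c : V ≃ₗ[K] V) w ∈ W) :
    ∃ φ : (CForm.res F h).iso ≃* (CForm.res F h).iso, ∀ g, c * ext h g * c⁻¹ = ext h (φ g) := by
  have key : ∀ (d : F.iso), (∀ w ∈ W, (d : V ≃ₗ[K] V) w ∈ W) → ∃ d' : (CForm.res F h).iso, ∀ w : W,
      ((d' : W ≃ₗ[K] W) w : V) = (d : V ≃ₗ[K] V) w := by
    intro d hd
    obtain ⟨g', hg'⟩ := (CForm.res F h).exists_iso (((d : V ≃ₗ[K] V) : V →ₗ[K] V).restrict hd)
      (fun u v => F.iso_B d u v) (fun u => F.iso_Q d u)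
    exact ⟨g', fun w => by rw [hg']; rfl⟩
  obtain ⟨d, hd⟩ := key c hc
  have hcc : ∀ v, (c : V ≃ₗ[K] V) (((c⁻¹ : F.iso) : V ≃ₗ[K] V) v) = v := fun v =>
    LinearEquiv.apply_symm_apply (c : V ≃ₗ[K] V) v
  have hperp : ∀ u ∈ F.perp W, ((c⁻¹ : F.iso) : V ≃ₗ[K] V) u ∈ F.perp W := by
    intro u hu w hw
    rw [← F.iso_B c, hcc]
    exact hu _ (hc w hw)
  refine ⟨MulAut.conj d, fun g => ?_⟩
  apply Subtype.ext
  apply LinearEquiv.ext
  intro a
  obtain ⟨w, hw, u, hu, rfl⟩ := h a
  rw [map_add, map_add]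
  congr 1
  · have e1 : ((c⁻¹ : F.iso) : V ≃ₗ[K] V) w = ((((d⁻¹ : (CForm.res F h).iso) : W ≃ₗ[K] W) ⟨w, hw⟩ : W) : V) := by
      apply (c : V ≃ₗ[K] V).injective
      rw [hcc, ← hd]
      have : (d : W ≃ₗ[K] W) (((d⁻¹ : (CForm.res F h).iso) : W ≃ₗ[K] W) ⟨w, hw⟩) = ⟨w, hw⟩ :=
        LinearEquiv.apply_symm_apply (d : W ≃ₗ[K] W) _
      rw [this]
    change (c : V ≃ₗ[K] V) (((ext h g : F.iso) : V ≃ₗ[K] V) (((c⁻¹ : F.iso) : V ≃ₗ[K] V) w)) = _
    rw [e1, ext_left, ← hd]
    have e2 := ext_left h (MulAut.conj d g) ⟨w, hw⟩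
    rw [e2]
    rfl
  · change (c : V ≃ₗ[K] V) (((ext h g : F.iso) : V ≃ₗ[K] V) (((c⁻¹ : F.iso) : V ≃ₗ[K] V) u)) = _
    rw [ext_right h g (hperp u hu), hcc, ext_right h _ hu]

end ext

/-! ### The fixed space of an element of order prime to the characteristic -/

/-- the fixed space -/
def fixS (x : V ≃ₗ[K] V) : Submodule K V := LinearMap.ker ((x : V →ₗ[K] V) - 1)

theorem mem_fixS {x : V ≃ₗ[K] V} {v : V} : v ∈ fixS x ↔ x v = v := by
  unfold fixS
  rw [LinearMap.mem_ker, LinearMap.sub_apply, sub_eq_zero]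
  rfl

theorem fixS_pow {x : V ≃ₗ[K] V} {v : V} (hv : v ∈ fixS x) (i : ℕ) : (x ^ i) v = v := by
  induction i with
  | zero => rfl
  | succ i ih => rw [pow_succ, LinearEquiv.mul_apply, mem_fixS.1 hv, ih]

theorem spl_fixS {x : F.iso} {n : ℕ} (hn : (n : K) ≠ 0) (hx : x ^ n = 1) : Spl F (fixS (x : V ≃ₗ[K] V)) := by
  intro v
  set y : V ≃ₗ[K] V := (x : V ≃ₗ[K] V) with hy
  have hyn : y ^ n = 1 := by
    have := congrArg Subtype.val hx
    simpa using this
  set s : V := ∑ i ∈ Finset.range n, (y ^ i) v with hs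
  have hys : y s = s := by
    rw [hs, map_sum]
    have h1 : ∀ i, y ((y ^ i) v) = (y ^ (i + 1)) v := fun i => by rw [pow_succ', LinearEquiv.mul_apply]
    simp only [h1]
    have h2 := Finset.sum_range_succ' (fun i => (y ^ i) v) n
    have h3 := Finset.sum_range_succ (fun i => (y ^ i) v) n
    rw [h3, hyn, pow_zero] at h2
    exact (add_right_cancel h2).symm
  refine ⟨(n : K)⁻¹ • s, (fixS y).smul_mem _ (mem_fixS.2 hys), v - (n : K)⁻¹ • s, ?_, by abel⟩
  intro w hw
  rw [F.B_sub_left, F.B_smul_left]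
  have h4 : ∀ i, F.B ((y ^ i) v) w = F.B v w := by
    intro i
    have h5 := F.iso_B (x ^ i) v w
    have h6 : ((x ^ i : F.iso) : V ≃ₗ[K] V) = y ^ i := by rw [hy]; rfl
    rw [h6, fixS_pow hw] at h5
    exact h5
  have h7 : F.B s w = (n : K) * F.B v w := by
    rw [hs]
    have h8 : ∀ t : Finset ℕ, F.B (∑ i ∈ t, (y ^ i) v) w = (t.card : K) * F.B v w := by
      intro t
      classical
      induction t using Finset.induction_on with
      | empty => rw [Finset.sum_empty, Finset.card_empty, F.B_zero_left, Nat.cast_zero, zero_mul]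
      | insert a t ha ih =>
        rw [Finset.sum_insert ha, Finset.card_insert_of_notMem ha, F.B_add_left, ih, h4]
        push_cast
        ring
    rw [h8, Finset.card_range]
  rw [h7, ← mul_assoc, inv_mul_cancel₀ hn, one_mul, sub_self]

/-- the centralizer preserves the fixed space -/
theorem centralizer_fixS {x c : F.iso} (hc : c * x = x * c) {w : V} (hw : w ∈ fixS (x : V ≃ₗ[K] V)) :
    (c : V ≃ₗ[K] V) w ∈ fixS (x : V ≃ₗ[K] V) := by
  rw [mem_fixS] at hw ⊢
  have h1 : ((c * x : F.iso) : V ≃ₗ[K] V) w = ((x * c : F.iso) : V ≃ₗ[K] V) w := by rw [hc]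
  change (c : V ≃ₗ[K] V) ((x : V ≃ₗ[K] V) w) = (x : V ≃ₗ[K] V) ((c : V ≃ₗ[K] V) w) at h1
  rw [hw] at h1
  exact h1.symm

/-- the image of `ext` centralises `x` if `W` is the fixed space of `x` -/
theorem ext_comm {x : F.iso} (h : Spl F (fixS (x : V ≃ₗ[K] V))) (g : (CForm.res F h).iso) :
    ext h g * x = x * ext h g := by
  apply Subtype.ext
  apply LinearEquiv.ext
  intro a
  obtain ⟨w, hw, u, hu, rfl⟩ := h a
  have hxu : (x : V ≃ₗ[K] V) u ∈ F.perp (fixS (x : V ≃ₗ[K] V)) := by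
    intro w' hw'
    have h1 := F.iso_B x u w'
    rw [mem_fixS.1 hw'] at h1
    rw [h1]
    exact hu w' hw'
  change ((ext h g : F.iso) : V ≃ₗ[K] V) ((x : V ≃ₗ[K] V) (w + u)) = (x : V ≃ₗ[K] V) (((ext h g : F.iso) : V ≃ₗ[K] V) (w + u))
  have e1 := ext_left h g ⟨w, hw⟩
  simp only at e1
  have e2 : (x : V ≃ₗ[K] V) ((g.1 ⟨w, hw⟩ : fixS (x : V ≃ₗ[K] V)) : V) = (g.1 ⟨w, hw⟩ : fixS (x : V ≃ₗ[K] V)) :=
    mem_fixS.1 (g.1 ⟨w, hw⟩).2
  rw [map_add, map_add, map_add, map_add, mem_fixS.1 hw, ext_right h g hxu, ext_right h g hu, e1, e2]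

section main

variable {W : Submodule K V}

/-- the image of the commutator subgroup of the isometry group of `W` -/
noncomputable def img (h : Spl F W) : Subgroup F.iso := (commutator (CForm.res F h).iso).map (ext h)

theorem img_le (h : Spl F W) : img h ≤ commutator F.iso := by
  unfold img
  rw [commutator_def, Subgroup.map_commutator]
  exact Subgroup.commutator_mono le_top le_top

noncomputable def imgEquiv (h : Spl F W) : ↥(img h) ≃* ↥(commutator (CForm.res F h).iso) :=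
  (Subgroup.equivMapOfInjective _ (ext h) (ext_injective h)).symm

theorem img_conj [FiniteDimensional K V] {x : F.iso} (h : Spl F (fixS (x : V ≃ₗ[K] V))) {c n : F.iso} (hc : c * x = x * c)
    (hn : n ∈ img h) : c * n * c⁻¹ ∈ img h := by
  obtain ⟨φ, hφ⟩ := conj_ext h (c := c) (fun w hw => centralizer_fixS hc hw)
  obtain ⟨g, hg, rfl⟩ := hn
  rw [hφ]
  refine ⟨φ g, ?_, rfl⟩
  have hch : (commutator (CForm.res F h).iso).Characteristic := inferInstance
  have h1 := hch.fixed φ
  rw [← h1] at hg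
  exact hg

/-- **Descent**, from a central quotient of the commutator subgroup. -/
theorem descend' [FiniteDimensional K V] [Finite F.iso] {p q : ℕ} (hp : p.Prime) (hq : q.Prime) (hpq : p ≠ q)
    {S : Type w} [Group S] {π : ↥(commutator F.iso) →* S} (hπ : Function.Surjective π)
    (hZ : π.ker ≤ Subgroup.center ↥(commutator F.iso)) (hZ' : ¬ p ∣ Nat.card π.ker)
    (hsc : ∀ z ∈ π.ker, ∃ a : K, ∀ v : V, ((z : F.iso) : V ≃ₗ[K] V) v = a • v)
    (h0 : PQ p q S) {x : F.iso} (hxD : x ∈ commutator F.iso) (hx1 : x ≠ 1) (hx : ∃ k : ℕ, orderOf x = p ^ k)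
    (h : Spl F (fixS (x : V ≃ₗ[K] V))) : PQ p q ↥(commutator (CForm.res F h).iso) := by
  let N : Subgroup ↥(commutator F.iso) := (img h).subgroupOf (commutator F.iso)
  have e : ↥N ≃* ↥(img h) := Subgroup.subgroupOfEquivOfLe (img_le h)
  have hx' : ∃ k : ℕ, orderOf (⟨x, hxD⟩ : ↥(commutator F.iso)) = p ^ k := by
    obtain ⟨k, hk⟩ := hx
    exact ⟨k, by rw [Subgroup.orderOf_mk]; exact hk⟩
  refine H358.A3.PQ.of_equiv (e.trans (imgEquiv h)) ?_
  refine PQ_sub' hp hq hpq hπ hZ hZ' h0 hx' N ?_ ?_ ?_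
  · rintro n hn
    rw [Subgroup.mem_centralizer_singleton_iff]
    obtain ⟨g, -, hg⟩ := (hn : (n : F.iso) ∈ img h)
    have hg' : (n : F.iso) = ext h g := hg.symm
    apply Subtype.ext
    change (n : F.iso) * x = x * n
    rw [hg']
    exact ext_comm h g
  · intro c hc n hn
    rw [Subgroup.mem_centralizer_singleton_iff] at hc
    exact img_conj h (congrArg Subtype.val hc) hn
  · intro n hn hn1
    obtain ⟨a, ha⟩ := hsc n hn1
    obtain ⟨g, -, hg⟩ := (hn : (n : F.iso) ∈ img h)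
    -- a non-zero vector of the orthogonal space
    obtain ⟨u, hu, hu0⟩ : ∃ u ∈ F.perp (fixS (x : V ≃ₗ[K] V)), u ≠ 0 := by
      by_contra hno
      push Not at hno
      apply hx1
      apply Subtype.ext
      apply LinearEquiv.ext
      intro v
      obtain ⟨w, hw, u, hu, rfl⟩ := h v
      rw [hno u hu, add_zero, mem_fixS.1 hw]
      rfl
    have hg' : (n : F.iso) = ext h g := hg.symm
    have h1 := ha u
    rw [hg', ext_right h g hu] at h1
    have ha1 : a = 1 := by
      by_contra hne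
      apply hu0
      have h2 : (a - 1) • u = 0 := by rw [sub_smul, one_smul, ← h1, sub_self]
      exact (smul_eq_zero.1 h2).resolve_left (sub_ne_zero.2 hne)
    apply Subtype.ext
    apply Subtype.ext
    apply LinearEquiv.ext
    intro v
    rw [ha v, ha1, one_smul]
    rfl

/-- **Descent.** -/
theorem descend [FiniteDimensional K V] [Finite F.iso] {p q : ℕ} (hp : p.Prime) (hq : q.Prime) (hpq : p ≠ q)
    (h0 : PQ p q ↥(commutator F.iso)) {x : F.iso} (hxD : x ∈ commutator F.iso) (hx1 : x ≠ 1)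
    (hx : ∃ k : ℕ, orderOf x = p ^ k) (h : Spl F (fixS (x : V ≃ₗ[K] V))) : PQ p q ↥(commutator (CForm.res F h).iso) := by
  refine descend' hp hq hpq (π := MonoidHom.id _) Function.surjective_id ?_ ?_ ?_ h0 hxD hx1 hx h
  · intro z hz
    have : z = 1 := hz
    rw [this]
    exact one_mem _
  · have : (MonoidHom.id ↥(commutator F.iso)).ker = ⊥ := by
      rw [MonoidHom.ker_eq_bot_iff]
      exact Function.injective_id
    rw [this, Subgroup.card_bot]
    exact hp.one_lt.ne' ∘ Nat.dvd_one.1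
  · intro z hz
    have : z = 1 := hz
    exact ⟨1, fun v => by rw [this, one_smul]; rfl⟩

end main

end Cfsg.Agent.H766.PQ
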