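import Cfsg.Agent.H792.PQ.A3a
import Cfsg.Agent.H358.A3.Normal

/-!
# S4612: one step of a descent (helper766)

* `PQ_sub` : `PQ p q G` passes to a subgroup `N ≤ C_G(x)` normalised by `C_G(x)`, `x` a `p`-element;
* `PQ_sub'` : the same from a central quotient `π : G →* S` with kernel of order prime to `p` to the subgroup `N ≤ G` with
  `N ∩ ker π = 1`;
* `not_PQ_of_abelian` : no such abelian subgroup of order divisible by `q`.
-/

set_option autoImplicit false
set_option linter.unusedSectionVars false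

open Cfsg Cfsg.Agent

namespace Cfsg.Agent.H766.PQ

open Cfsg.Agent.H358.A3 (PQ)

universe u v

variable {p q : ℕ} {G : Type u} [Group G] {S : Type v} [Group S]

theorem PQ_sub [Finite G] (hp : p.Prime) (hq : q.Prime) (hpq : p ≠ q) (h : PQ p q G) {x : G}
    (hx : ∃ k : ℕ, orderOf x = p ^ k) (N : Subgroup G) (hNC : N ≤ Subgroup.centralizer ({x} : Set G))
    (hn : ∀ c ∈ Subgroup.centralizer ({x} : Set G), ∀ n ∈ N, c * n * c⁻¹ ∈ N) : PQ p q N := by
  have h1 := H358.A3.PQ.centralizer hp hq hpq h hx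
  have : (N.subgroupOf (Subgroup.centralizer ({x} : Set G))).Normal := ⟨fun n hn' c => hn c c.2 n hn'⟩
  have h2 := H358.A3.PQ.normal hp hq hpq h1 (N.subgroupOf (Subgroup.centralizer ({x} : Set G)))
  exact H358.A3.PQ.of_equiv (Subgroup.subgroupOfEquivOfLe hNC) h2

/-- the centralizer of the image of a `p`-element under a central surjection with kernel of order prime to `p` -/
theorem exists_centralizer [Finite G] {π : G →* S} (hπ : Function.Surjective π)
    (hZ : π.ker ≤ Subgroup.center G) (hZp : p.Prime) (hZ' : ¬ p ∣ Nat.card π.ker) {x : G} (hx : ∃ k : ℕ, orderOf x = p ^ k)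
    {s : S} (hs : s ∈ Subgroup.centralizer ({π x} : Set S)) : ∃ g ∈ Subgroup.centralizer ({x} : Set G), π g = s := by
  obtain ⟨g, rfl⟩ := hπ s
  refine ⟨g, ?_, rfl⟩
  rw [Subgroup.mem_centralizer_singleton_iff] at hs ⊢
  set z : G := g * x * g⁻¹ * x⁻¹ with hz
  have hzk : z ∈ π.ker := by
    rw [MonoidHom.mem_ker, hz, map_mul, map_mul, map_mul, hs, map_inv, map_inv]
    group
  have hzx : g * x * g⁻¹ = z * x := by rw [hz]; group
  obtain ⟨k, hk⟩ := hx
  have hcomm : Commute z x := ((Subgroup.mem_center_iff.1 (hZ hzk) x).symm : z * x = x * z)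
  have h1 : (z * x) ^ p ^ k = 1 := by
    rw [← hzx, conj_pow, ← hk, pow_orderOf_eq_one, mul_one, mul_inv_cancel]
  have h2 : z ^ p ^ k = 1 := by
    rw [hcomm.mul_pow, ← hk, pow_orderOf_eq_one, mul_one] at h1
    rwa [hk] at h1
  have h3 : z ^ Nat.card π.ker = 1 := by
    have := pow_card_eq_one' (x := (⟨z, hzk⟩ : π.ker))
    exact congrArg Subtype.val this
  have h4 : z = 1 := by
    have hco : Nat.Coprime (p ^ k) (Nat.card π.ker) := Nat.Coprime.pow_left k ((Nat.Prime.coprime_iff_not_dvd hZp).2 hZ')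
    have h5 : orderOf z ∣ Nat.gcd (p ^ k) (Nat.card π.ker) :=
      Nat.dvd_gcd (orderOf_dvd_of_pow_eq_one h2) (orderOf_dvd_of_pow_eq_one h3)
    rw [hco, Nat.dvd_one] at h5
    exact orderOf_eq_one_iff.1 h5
  rw [h4, one_mul] at hzx
  calc g * x = (g * x * g⁻¹) * g := by group
    _ = x * g := by rw [hzx]

theorem PQ_sub' [Finite G] (hp : p.Prime) (hq : q.Prime) (hpq : p ≠ q) {π : G →* S} (hπ : Function.Surjective π)
    (hZ : π.ker ≤ Subgroup.center G) (hZ' : ¬ p ∣ Nat.card π.ker) (h : PQ p q S) {x : G}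
    (hx : ∃ k : ℕ, orderOf x = p ^ k) (N : Subgroup G) (hNC : N ≤ Subgroup.centralizer ({x} : Set G))
    (hn : ∀ c ∈ Subgroup.centralizer ({x} : Set G), ∀ n ∈ N, c * n * c⁻¹ ∈ N)
    (hN1 : ∀ n ∈ N, π n = 1 → n = 1) : PQ p q N := by
  have : Finite S := Finite.of_surjective π hπ
  have hx' : ∃ k : ℕ, orderOf (π x) = p ^ k := by
    obtain ⟨k, hk⟩ := hx
    obtain ⟨j, -, hj⟩ := (Nat.dvd_prime_pow hp).1 (hk ▸ orderOf_map_dvd π x)
    exact ⟨j, hj⟩
  have h1 : PQ p q (N.map π) := by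
    refine PQ_sub hp hq hpq h hx' (N.map π) ?_ ?_
    · rintro _ ⟨n, hn', rfl⟩
      rw [Subgroup.mem_centralizer_singleton_iff, ← map_mul, ← map_mul]
      exact congrArg π (Subgroup.mem_centralizer_singleton_iff.1 (hNC hn'))
    · rintro c hc _ ⟨n, hn', rfl⟩
      obtain ⟨g, hg, rfl⟩ := exists_centralizer hπ hZ hp hZ' hx hc
      exact ⟨g * n * g⁻¹, hn g hg n hn', by rw [map_mul, map_mul, map_inv]⟩
  have hinj : Function.Injective (π.comp N.subtype) := by
    rw [injective_iff_map_eq_one]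
    intro n hn'
    exact Subtype.ext (hN1 n n.2 hn')
  have hr : (π.comp N.subtype).range = N.map π := by
    rw [MonoidHom.range_comp, Subgroup.range_subtype]
  exact H358.A3.PQ.of_equiv ((MonoidHom.ofInjective hinj).trans (MulEquiv.subgroupCongr hr)).symm h1

/-- an abelian subgroup centralising the `p`-element `x` and normalised by its centralizer has order prime to `q` -/
theorem not_PQ_of_abelian [Finite G] (hp : p.Prime) (hq : q.Prime) (hpq : p ≠ q) {π : G →* S}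
    (hπ : Function.Surjective π) (hZ : π.ker ≤ Subgroup.center G) (hZ' : ¬ p ∣ Nat.card π.ker) {x : G}
    (hx : ∃ k : ℕ, orderOf x = p ^ k) (A : Subgroup G) (hAC : A ≤ Subgroup.centralizer ({x} : Set G))
    (hA : ∀ c ∈ Subgroup.centralizer ({x} : Set G), ∀ a ∈ A, c * a * c⁻¹ ∈ A) (hcomm : ∀ a ∈ A, ∀ b ∈ A, a * b = b * a)
    (hqA : ∃ a ∈ A, (∃ k : ℕ, orderOf a = q ^ k) ∧ π a ≠ 1) : ¬ PQ p q S := by
  intro h
  have hfin : Finite S := Finite.of_surjective π hπ
  have hx' : ∃ k : ℕ, orderOf (π x) = p ^ k := by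
    obtain ⟨k, hk⟩ := hx
    obtain ⟨j, -, hj⟩ := (Nat.dvd_prime_pow hp).1 (hk ▸ orderOf_map_dvd π x)
    exact ⟨j, hj⟩
  have h1 := H358.A3.PQ.centralizer hp hq hpq h hx'
  -- the `q`-elements of `A`
  let Aq : Subgroup G :=
    { carrier := {a | a ∈ A ∧ ∃ k : ℕ, a ^ q ^ k = 1}
      one_mem' := ⟨A.one_mem, 0, one_pow _⟩
      mul_mem' := by
        rintro a b ⟨ha, k, hk⟩ ⟨hb, l, hl⟩
        refine ⟨A.mul_mem ha hb, k + l, ?_⟩
        have hab : Commute a b := hcomm a ha b hb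
        rw [hab.mul_pow, pow_add, pow_mul, hk, one_pow, one_mul, mul_comm, pow_mul, hl, one_pow]
      inv_mem' := by
        rintro a ⟨ha, k, hk⟩
        exact ⟨A.inv_mem ha, k, by rw [inv_pow, hk, inv_one]⟩ }
  have hle : Aq.map π ≤ Subgroup.centralizer ({π x} : Set S) := by
    rintro _ ⟨a, ha, rfl⟩
    rw [Subgroup.mem_centralizer_singleton_iff, ← map_mul, ← map_mul]
    exact congrArg π (Subgroup.mem_centralizer_singleton_iff.1 (hAC ha.1))
  let N : Subgroup (Subgroup.centralizer ({π x} : Set S)) := (Aq.map π).subgroupOf _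
  have hN : N.Normal := by
    refine ⟨?_⟩
    rintro ⟨_, hn⟩ ⟨a, ha, rfl⟩ c
    obtain ⟨g, hg, hgc⟩ := exists_centralizer hπ hZ hp hZ' hx c.2
    refine ⟨g * a * g⁻¹, ⟨hA g hg a ha.1, ?_⟩, ?_⟩
    · obtain ⟨k, hk⟩ := ha.2
      exact ⟨k, by rw [conj_pow, hk, mul_one, mul_inv_cancel]⟩
    · rw [map_mul, map_mul, map_inv, hgc]
      rfl
  have hNq : IsPGroup q N := by
    rintro ⟨⟨s, hs⟩, hs'⟩
    obtain ⟨a, ha, hπa⟩ := hs'
    obtain ⟨k, hk⟩ := ha.2
    refine ⟨k, Subtype.ext (Subtype.ext ?_)⟩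
    change s ^ q ^ k = 1
    have hs2 : π a = s := hπa
    rw [← hs2, ← map_pow, hk, map_one]
  have hfq : Fact q.Prime := ⟨hq⟩
  obtain ⟨m, hm⟩ := IsPGroup.iff_card.1 hNq
  have h2 : ¬ p ∣ Nat.card N := by
    rw [hm]
    intro h3
    exact hpq ((Nat.prime_dvd_prime_iff_eq hp hq).1 (hp.dvd_of_dvd_pow h3))
  have h3 := H358.A3.PQ.core hp hq hpq h1 N h2
  apply h3
  obtain ⟨a, haA, ⟨k, hk⟩, hπa⟩ := hqA
  have hm0 : m ≠ 0 := by
    rintro rfl
    rw [pow_zero] at hm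
    have ha : a ∈ Aq := ⟨haA, k, by rw [← hk, pow_orderOf_eq_one]⟩
    have h4 : (⟨⟨π a, hle ⟨a, ha, rfl⟩⟩, ⟨a, ha, rfl⟩⟩ : N) = 1 := by
      have := (Nat.card_eq_one_iff_unique.1 hm).1
      exact Subsingleton.elim _ _
    exact hπa (congrArg Subtype.val (congrArg Subtype.val h4))
  rw [hm]
  exact dvd_pow_self q hm0

end Cfsg.Agent.H766.PQ
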